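import Cfsg.Agent.H63.Plus
import Cfsg.Agent.H487.SchurPerfect
import Cfsg.Agent.AutOrth.Main
import Cfsg.Agent.ClassicalGeometry.Triality
import Cfsg.Agent.S0790

/-!
# The triality triples form the universal cover of `PΩ⁺₈(q)`, `q` odd; triality on the multiplier

* `TT F` : the group of the triality triples inside `E`; `rot` : the automorphism of order three;
* `perfect_TT`; `prT : TT F →* P (plusForm 4 F)` with kernel the four-group of signs;
* `tri` : the automorphisms of the universal cover are transitive on the subgroups of order two of the kernel.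
-/

set_option autoImplicit false

namespace Cfsg.Agent.H887.DM

open QuadraticMap Function
open Cfsg.Agent.LieClassical.OrthCore Cfsg.Agent.LieClassical.OrthTrans
  Cfsg.Agent.ClassicalGeometry.TrialityOct Cfsg.Agent.ClassicalGeometry.OrthAut1
  Cfsg.Agent.ClassicalGeometry.Triality
open Cfsg.Agent.LieClassical.QuadForms
open Cfsg.Agent.H487
open scoped commutatorElement

universe u

/-! ### General facts -/

section General

variable {Q : Type u} {T : Type u} [Group Q] [Finite Q] [Group T] [Finite T]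

/-- A perfect central extension of the order of the universal cover is the universal cover. -/
theorem exists_equiv_of (p : T →* Q) (hs : Surjective p) (hc : p.ker ≤ Subgroup.center T)
    (hT : _root_.commutator T = ⊤) {A : Type*} [CommGroup A] (hm : Cfsg.HasSchurMultiplier Q A)
    (hA : Nat.card A ≤ Nat.card p.ker) : ∃ η : UU Q ≃* T, p.comp η.toMonoidHom = prU Q := by
  obtain ⟨η, hη⟩ := exists_prU_lift Q (MonoidHom.id _) hs hc
  rw [MonoidHom.id_comp] at hη
  have hperf : Group.IsPerfect Q := ⟨by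
    rw [← Subgroup.map_top_of_surjective _ hs, ← hT, _root_.commutator_def,
      _root_.commutator_def, Subgroup.map_commutator, Subgroup.map_top_of_surjective _ hs]⟩
  have hsU := prU_surjective hperf
  have hsurj : Surjective η := by
    have hs : Surjective (p.comp η) := by rw [hη]; exact hsU
    have h1 := commutator_eq_map_of_central hc hs
    rw [hT, (isPerfect_UU hperf).commutator_eq_top] at h1
    rw [← MonoidHom.range_eq_top, MonoidHom.range_eq_map]
    exact h1.symm
  have hcardK : Nat.card (prU Q).ker ≤ Nat.card p.ker := by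
    obtain ⟨e⟩ := (hasSchurMultiplier_iff.1 hm)
    obtain ⟨e'⟩ := nonempty_prU_ker Q
    rwa [Nat.card_congr (e'.trans e.symm).toEquiv]
  have hU := Subgroup.card_eq_card_quotient_mul_card_subgroup (prU Q).ker
  have hT := Subgroup.card_eq_card_quotient_mul_card_subgroup p.ker
  rw [Nat.card_congr (QuotientGroup.quotientKerEquivOfSurjective _ hsU).toEquiv] at hU
  rw [Nat.card_congr (QuotientGroup.quotientKerEquivOfSurjective _ hs).toEquiv] at hT
  have hle : Nat.card (UU Q) ≤ Nat.card T := by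
    rw [hU, hT]; exact Nat.mul_le_mul_left _ hcardK
  have hbij : Bijective η := by
    refine ⟨?_, hsurj⟩
    have h5 : Nat.card (UU Q) = Nat.card T :=
      le_antisymm hle (Nat.card_le_card_of_surjective _ hsurj)
    exact ((Nat.bijective_iff_surjective_and_card η).2 ⟨hsurj, h5⟩).1
  exact ⟨MulEquiv.ofBijective η hbij, by rw [← hη]; rfl⟩

omit [Finite Q] in
/-- Transitivity on the subgroups of order two. -/
theorem trans_of (p : T →* Q) {z0 z1 z2 : T} (hk : ∀ t : T, p t = 1 → t = 1 ∨ t = z0 ∨ t = z1 ∨ t = z2)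
    (r : MulAut T) (r1 : r z1 = z2) (r2 : r z2 = z0)
    (A B : Subgroup T) (hA : A ≤ p.ker) (hB : B ≤ p.ker) (cA : Nat.card A = 2)
    (cB : Nat.card B = 2) : ∃ φ : MulAut T, A.map φ.toMonoidHom = B := by
  have key : ∀ A : Subgroup T, A ≤ p.ker → Nat.card A = 2 →
      ∃ φ : MulAut T, A.map φ.toMonoidHom = Subgroup.zpowers z0 := by
    intro A hA cA
    have : Nontrivial A := Finite.one_lt_card_iff_nontrivial.1 (by rw [cA]; norm_num)
    obtain ⟨a, ha⟩ := exists_ne (1 : A)
    have ha' : (a : T) ≠ 1 := fun h => ha (Subtype.ext h)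
    have hAa : A = Subgroup.zpowers (a : T) := by
      have h1 : Subgroup.zpowers (a : T) ≤ A := by rw [Subgroup.zpowers_le]; exact a.2
      refine (Subgroup.eq_of_le_of_card_ge h1 ?_).symm
      rw [cA, Nat.card_zpowers]
      have h3 : orderOf (a : T) ≠ 1 := by rwa [Ne, orderOf_eq_one_iff]
      have h4 : 0 < orderOf (a : T) := orderOf_pos _
      omega
    have hmap : ∀ φ : MulAut T, (Subgroup.zpowers (a : T)).map φ.toMonoidHom = Subgroup.zpowers (φ a) :=
      fun φ => MonoidHom.map_zpowers _ _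
    rcases hk _ (hA a.2) with h | h | h | h
    · exact absurd h ha'
    · refine ⟨1, ?_⟩
      rw [hAa, hmap, h]; rfl
    · refine ⟨r * r, ?_⟩
      rw [hAa, hmap, h, MulAut.mul_apply, r1, r2]
    · refine ⟨r, ?_⟩
      rw [hAa, hmap, h, r2]
  obtain ⟨φ, hφ⟩ := key A hA cA
  obtain ⟨ψ, hψ⟩ := key B hB cB
  refine ⟨ψ⁻¹ * φ, ?_⟩
  have h1 : (ψ⁻¹ * φ : MulAut T).toMonoidHom = (ψ⁻¹ : MulAut T).toMonoidHom.comp φ.toMonoidHom := rfl
  rw [h1, ← Subgroup.map_map, hφ, ← hψ, Subgroup.map_map]
  have h3 : (ψ⁻¹ : MulAut T).toMonoidHom.comp ψ.toMonoidHom = MonoidHom.id _ := by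
    ext x : 1
    exact ψ.symm_apply_apply x
  rw [h3, Subgroup.map_id]

/-- Transfer to the universal cover. -/
theorem tri_of (p : T →* Q) (η : UU Q ≃* T) (hη : p.comp η.toMonoidHom = prU Q)
    {z0 z1 z2 : T} (hk : ∀ t : T, p t = 1 → t = 1 ∨ t = z0 ∨ t = z1 ∨ t = z2)
    (r : MulAut T) (r1 : r z1 = z2) (r2 : r z2 = z0)
    (A B : Subgroup (UU Q)) (hA : A ≤ (prU _).ker) (hB : B ≤ (prU _).ker) (cA : Nat.card A = 2)
    (cB : Nat.card B = 2) : ∃ φ : MulAut (UU Q), A.map φ.toMonoidHom = B := by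
  have hk' : ∀ A : Subgroup (UU Q), A ≤ (prU _).ker → A.map η.toMonoidHom ≤ p.ker := by
    rintro A hA _ ⟨x, hx, rfl⟩
    have h1 : p (η x) = prU _ x := DFunLike.congr_fun hη x
    rw [MonoidHom.mem_ker]
    exact h1.trans (hA hx)
  have hc : ∀ A : Subgroup (UU Q), Nat.card (A.map η.toMonoidHom) = Nat.card A :=
    fun A => Subgroup.card_map_of_injective η.injective
  obtain ⟨φ, hφ⟩ := trans_of p hk r r1 r2 (A.map η.toMonoidHom) (B.map η.toMonoidHom) (hk' A hA) (hk' B hB)
    ((hc A).trans cA) ((hc B).trans cB)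
  refine ⟨(η.trans φ).trans η.symm, ?_⟩
  have h1 : ((η.trans φ).trans η.symm).toMonoidHom =
      (η.symm.toMonoidHom.comp φ.toMonoidHom).comp η.toMonoidHom := rfl
  rw [h1, ← Subgroup.map_map, ← Subgroup.map_map, hφ, Subgroup.map_map]
  have h3 : η.symm.toMonoidHom.comp η.toMonoidHom = MonoidHom.id _ := by
    ext x : 1
    exact η.symm_apply_apply x
  rw [h3, Subgroup.map_id]

end General

variable {F : Type u} [Field F]

/-- The group of the triality triples inside `E`. -/
def TT (F : Type u) [Field F] : Subgroup ((V8 F ≃ₗ[F] V8 F) × (V8 F ≃ₗ[F] V8 F) × (V8 F ≃ₗ[F] V8 F)) where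
  carrier := {t | TriE t.1 t.2.1 t.2.2}
  mul_mem' ha hb := ha.mul hb
  one_mem' := ⟨⟨one_mem _, one_mem _, one_mem _⟩, Tri.one⟩
  inv_mem' ha := ha.inv

theorem tE (t : TT F) : TriE t.1.1 t.1.2.1 t.1.2.2 := t.2

theorem tt_ext {s t : TT F} (h : s.1.1 = t.1.1) (h1 : s.1.2.1 = t.1.2.1) (h2 : s.1.2.2 = t.1.2.2) : s = t :=
  Subtype.ext (Prod.ext h (Prod.ext h1 h2))

/-- The cyclic symmetry. -/
def rotH (F : Type u) [Field F] : TT F →* TT F where
  toFun t := ⟨(kap F * t.1.2.1 * kap F, t.1.2.2, kap F * t.1.1 * kap F), (tE t).rot⟩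
  map_one' := by
    refine tt_ext ?_ rfl ?_
    · change kap F * 1 * kap F = 1
      rw [mul_one, kap_mul_kap]
    · change kap F * 1 * kap F = 1
      rw [mul_one, kap_mul_kap]
  map_mul' s t := by
    have key : ∀ a b : V8 F ≃ₗ[F] V8 F, kap F * (a * b) * kap F = (kap F * a * kap F) * (kap F * b * kap F) := by
      intro a b
      have : (kap F * a * kap F) * (kap F * b * kap F) = kap F * a * (kap F * kap F) * b * kap F := by group
      rw [this, kap_mul_kap]; group
    exact tt_ext (key _ _) rfl (key _ _)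

theorem rotH_rotH_rotH (t : TT F) : rotH F (rotH F (rotH F t)) = t := by
  refine tt_ext ?_ ?_ ?_
  · exact kap_conj_conj _
  · exact kap_conj_conj _
  · exact kap_conj_conj _

/-- The triality automorphism of the group of triples. -/
def rot (F : Type u) [Field F] : TT F ≃* TT F where
  toFun := rotH F
  invFun t := rotH F (rotH F t)
  left_inv t := rotH_rotH_rotH t
  right_inv t := rotH_rotH_rotH t
  map_mul' := (rotH F).map_mul

/-! ### The triples of signs -/

/-- The scalar map `-1`. -/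
def ng (F : Type u) [Field F] : V8 F ≃ₗ[F] V8 F := LinearEquiv.neg F

theorem ng_apply (x : V8 F) : ng F x = -x := rfl

theorem neg_omul (x y : V8 F) : omul (-x) y = -omul x y := by
  have h := smul_omul (-1 : F) x y
  rwa [neg_one_smul, neg_one_smul] at h

theorem omul_neg (x y : V8 F) : omul x (-y) = -omul x y := by
  have h := omul_smul (-1 : F) x y
  rwa [neg_one_smul, neg_one_smul] at h

theorem oconj_neg (x : V8 F) : oconj (-x) = -oconj x := (kap F).map_neg x

theorem tri_z0 : Tri (1 : V8 F ≃ₗ[F] V8 F) (ng F) (ng F) := by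
  intro x y
  rw [ng_apply, ng_apply, neg_omul, omul_neg, neg_neg]
  rfl

theorem tri_z1 : Tri (ng F) (ng F) (1 : V8 F ≃ₗ[F] V8 F) := by
  intro x y
  rw [ng_apply, ng_apply, neg_omul]
  rfl

theorem tri_z2 : Tri (ng F) (1 : V8 F ≃ₗ[F] V8 F) (ng F) := by
  intro x y
  rw [ng_apply, ng_apply, omul_neg]
  rfl

theorem kap_ng_kap : kap F * ng F * kap F = ng F := by
  apply LinearEquiv.ext
  intro x
  have h : kap F (-(kap F x)) = -x := by
    rw [map_neg]
    exact congrArg Neg.neg (oconj_oconj x)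
  exact h

theorem kap_one_kap : kap F * 1 * kap F = 1 := by rw [mul_one, kap_mul_kap]

variable [Finite F]

theorem good8 (F : Type u) [Field F] [Finite F] : Good (plusForm 4 F) := by
  apply Cfsg.Agent.LieClassical.OrthFinite.good_of_finite nondeg8
  rw [Module.finrank_fintype_fun_eq_card, Fintype.card_sum, Fintype.card_fin]
  omega

theorem ng_mem : ng F ∈ E (plusForm 4 F) := by
  have hG := good8 F
  have h := S0790.exists_of_even (F := F) 4 (by decide)
  rw [← coe_plusForm] at h
  obtain ⟨g, hg, hg1⟩ := h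
  have h2 : ((AutOrth.Main.oe hG ⟨g, hg⟩ : ↥(E (plusForm 4 F))) : V8 F ≃ₗ[F] V8 F) = ng F := by
    apply LinearEquiv.ext
    intro v
    rw [AutOrth.Main.oe_apply, ng_apply]
    change Matrix.mulVec (g : Matrix.GeneralLinearGroup (Fin 4 ⊕ Fin 4) F).1 v = -v
    rw [hg1, Matrix.neg_mulVec, Matrix.one_mulVec]
  rw [← h2]
  exact (AutOrth.Main.oe hG ⟨g, hg⟩).2

/-- `(1, -1, -1)`. -/
def z0 (F : Type u) [Field F] [Finite F] : TT F :=
  ⟨(1, ng F, ng F), ⟨⟨one_mem _, ng_mem, ng_mem⟩, tri_z0⟩⟩

/-- `(-1, -1, 1)`. -/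
def z1 (F : Type u) [Field F] [Finite F] : TT F :=
  ⟨(ng F, ng F, 1), ⟨⟨ng_mem, ng_mem, one_mem _⟩, tri_z1⟩⟩

/-- `(-1, 1, -1)`. -/
def z2 (F : Type u) [Field F] [Finite F] : TT F :=
  ⟨(ng F, 1, ng F), ⟨⟨ng_mem, one_mem _, ng_mem⟩, tri_z2⟩⟩

theorem rot_z0 : rot F (z0 F) = z1 F := tt_ext kap_ng_kap rfl kap_one_kap

theorem rot_z1 : rot F (z1 F) = z2 F := tt_ext kap_ng_kap rfl kap_ng_kap

theorem rot_z2 : rot F (z2 F) = z0 F := tt_ext kap_one_kap rfl kap_ng_kap

omit [Finite F] in
/-- An isometry that is a scalar is `±1`. -/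
theorem eq_of_scalar {g : V8 F ≃ₗ[F] V8 F} (hg : g ∈ E (plusForm 4 F)) {c : F} (h : ∀ x, g x = c • x) :
    g = 1 ∨ g = ng F := by
  have h1 := mem_O.1 (E_le_O hg) (one8 F)
  rw [h, QuadraticMap.map_smul, norm_one8, smul_eq_mul, mul_one] at h1
  rcases mul_self_eq_one_iff.1 h1 with h2 | h2
  · left
    ext x : 1
    rw [h, h2, one_smul]; rfl
  · right
    ext x : 1
    rw [h, h2, neg_one_smul]; rfl

omit [Finite F] in
theorem ng_eq_one (h : one8 F = -one8 F) : ng F = 1 := by
  apply LinearEquiv.ext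
  intro x
  rw [ng_apply]
  change -x = x
  calc -x = -omul (one8 F) x := by rw [one_omul]
    _ = omul (-one8 F) x := (neg_omul _ _).symm
    _ = x := by rw [← h, one_omul]

/-- A triple with a scalar first member. -/
theorem cases_of_scalar {t : TT F} {c : F} (h : ∀ x, t.1.1 x = c • x) :
    t = 1 ∨ t = z0 F ∨ t = z1 F ∨ t = z2 F := by
  obtain ⟨⟨c1, h1⟩, ⟨c2, h2⟩⟩ := (tE t).2.scalar (scalar_ne_zero h) h
  have e0 := eq_of_scalar (tE t).1.1 h
  have e1 := eq_of_scalar (tE t).1.2.1 h1
  have e2 := eq_of_scalar (tE t).1.2.2 h2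
  by_cases hn : ng F = 1
  · rw [hn, or_self] at e0 e1 e2
    exact Or.inl (tt_ext e0 e1 e2)
  · have hne : one8 F ≠ -one8 F := fun h => hn (ng_eq_one h)
    have hne' : -one8 F ≠ one8 F := hne.symm
    have ht : t.1.1 (one8 F) = omul (t.1.2.1 (one8 F)) (t.1.2.2 (one8 F)) := by
      have := (tE t).2 (one8 F) (one8 F)
      rwa [omul_one] at this
    have a1 : (1 : V8 F ≃ₗ[F] V8 F) (one8 F) = one8 F := rfl
    have a2 : ng F (one8 F) = -one8 F := rfl
    rcases e0 with e0 | e0 <;> rcases e1 with e1 | e1 <;> rcases e2 with e2 | e2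
    · exact Or.inl (tt_ext e0 e1 e2)
    · rw [e0, e1, e2, a1, a2, one_omul] at ht
      exact absurd ht hne
    · rw [e0, e1, e2, a1, a2, omul_one] at ht
      exact absurd ht hne
    · exact Or.inr (Or.inl (tt_ext e0 e1 e2))
    · rw [e0, e1, e2, a1, a2, omul_one] at ht
      exact absurd ht hne'
    · exact Or.inr (Or.inr (Or.inr (tt_ext e0 e1 e2)))
    · exact Or.inr (Or.inr (Or.inl (tt_ext e0 e1 e2)))
    · rw [e0, e1, e2, a2, neg_omul, one_omul, neg_neg] at ht
      exact absurd ht hne'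

/-! ### The group of triples is perfect -/

/-- The first member. -/
def p0 (F : Type u) [Field F] : TT F →* ↥(E (plusForm 4 F)) where
  toFun t := ⟨t.1.1, (tE t).1.1⟩
  map_one' := rfl
  map_mul' _ _ := rfl

theorem p0_surjective : Surjective (p0 F) := by
  intro g
  obtain ⟨g₁, g₂, h⟩ := exists_triple (good8 F) g.2
  exact ⟨⟨(g, g₁, g₂), h⟩, rfl⟩

theorem perfect_TT : _root_.commutator (TT F) = ⊤ := by
  have hE : _root_.commutator ↥(E (plusForm 4 F)) = ⊤ := by
    apply Subgroup.map_injective (E (plusForm 4 F)).subtype_injective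
    rw [_root_.commutator_def, Subgroup.map_commutator, ← MonoidHom.range_eq_map, Subgroup.range_subtype]
    exact (good8 F).E_perfect
  have h0 : (_root_.commutator (TT F)).map (p0 F) = ⊤ := by
    rw [_root_.commutator_def, Subgroup.map_commutator, Subgroup.map_top_of_surjective _ p0_surjective,
      ← _root_.commutator_def, hE]
  have hrot : ∀ t ∈ _root_.commutator (TT F), rot F t ∈ _root_.commutator (TT F) := by
    intro t ht
    have hc : (_root_.commutator (TT F)).Characteristic := inferInstance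
    have := hc.fixed (rot F)
    rw [← this] at ht
    exact ht
  have key : ∀ t : TT F, ∃ s ∈ _root_.commutator (TT F), p0 F s = p0 F t := by
    intro t
    have : p0 F t ∈ (_root_.commutator (TT F)).map (p0 F) := by rw [h0]; exact Subgroup.mem_top _
    exact this
  have hz0 : z0 F ∈ _root_.commutator (TT F) := by
    by_cases hn : ng F = 1
    · have : z0 F = 1 := tt_ext rfl hn hn
      rw [this]; exact one_mem _
    obtain ⟨s, hs, hs1⟩ := key (z1 F)
    have hs2 : s.1.1 = ng F := congrArg Subtype.val hs1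
    rcases cases_of_scalar (t := s) (c := -1) (fun x => by rw [hs2, ng_apply, neg_one_smul]) with h | h | h | h
    · rw [h] at hs2
      exact absurd hs2.symm hn
    · rw [h] at hs2
      exact absurd hs2.symm hn
    · rw [← rot_z2, ← rot_z1, ← h]
      exact hrot _ (hrot _ hs)
    · rw [← rot_z2, ← h]
      exact hrot _ hs
  rw [eq_top_iff]
  intro t _
  obtain ⟨s, hs, hst⟩ := key t
  have h1 : s⁻¹ * t ∈ _root_.commutator (TT F) := by
    have h2 : (s⁻¹ * t).1.1 = 1 := by
      have h3 : p0 F (s⁻¹ * t) = 1 := by rw [map_mul, map_inv, hst, inv_mul_cancel]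
      exact congrArg Subtype.val h3
    by_cases hn : ng F = 1
    · rcases cases_of_scalar (t := s⁻¹ * t) (c := 1) (fun x => by rw [h2, one_smul]; rfl) with h | h | h | h
      · rw [h]; exact one_mem _
      · rw [h]; exact hz0
      · have : z1 F = 1 := tt_ext hn hn rfl
        rw [h, this]; exact one_mem _
      · have : z2 F = 1 := tt_ext hn rfl hn
        rw [h, this]; exact one_mem _
    · rcases cases_of_scalar (t := s⁻¹ * t) (c := 1) (fun x => by rw [h2, one_smul]; rfl) with h | h | h | h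
      · rw [h]; exact one_mem _
      · rw [h]; exact hz0
      · rw [h] at h2
        exact absurd h2 hn
      · rw [h] at h2
        exact absurd h2 hn
  have : t = s * (s⁻¹ * t) := by group
  rw [this]
  exact mul_mem hs h1

/-! ### The projection onto `PΩ⁺₈(q)` -/

/-- The projection of the group of triples onto `PΩ⁺₈(q)`. -/
noncomputable def prT (F : Type u) [Field F] [Finite F] : TT F →* Cfsg.POmega F ⇑(plusForm 4 F) :=
  (AutOrth.Main.pe (good8 F)).symm.toMonoidHom.comp
    ((QuotientGroup.mk' (Subgroup.center ↥(E (plusForm 4 F)))).comp (p0 F))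

theorem prT_surjective : Surjective (prT F) :=
  (AutOrth.Main.pe (good8 F)).symm.surjective.comp
    ((QuotientGroup.mk'_surjective _).comp p0_surjective)

theorem prT_eq_one_iff {t : TT F} : prT F t = 1 ↔ t = 1 ∨ t = z0 F ∨ t = z1 F ∨ t = z2 F := by
  have h0 : prT F t = 1 ↔ p0 F t ∈ Subgroup.center ↥(E (plusForm 4 F)) := by
    change (AutOrth.Main.pe (good8 F)).symm ((p0 F t : ↥(E (plusForm 4 F))) : P (plusForm 4 F)) = 1 ↔ _
    rw [MulEquiv.map_eq_one_iff, QuotientGroup.eq_one_iff]
  rw [h0]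
  constructor
  · intro h
    obtain ⟨c, hc⟩ := center_scalar (good8 F) h
    exact cases_of_scalar hc
  · rintro (h | h | h | h)
    · rw [h, map_one]; exact one_mem _
    · rw [h]; exact mem_center_of_scalar (c := 1) fun v => by rw [one_smul]; rfl
    · rw [h]; exact mem_center_of_scalar (c := -1) fun v => by rw [neg_one_smul]; rfl
    · rw [h]; exact mem_center_of_scalar (c := -1) fun v => by rw [neg_one_smul]; rfl

omit [Finite F] in
theorem ng_comm (g : V8 F ≃ₗ[F] V8 F) : g * ng F = ng F * g := by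
  apply LinearEquiv.ext
  intro x
  change g (-x) = -g x
  rw [map_neg]

theorem prT_ker_central : (prT F).ker ≤ Subgroup.center (TT F) := by
  intro t ht
  rw [Subgroup.mem_center_iff]
  intro s
  rcases prT_eq_one_iff.1 ht with h | h | h | h
  · rw [h, one_mul, mul_one]
  · rw [h]; exact tt_ext (by change s.1.1 * 1 = 1 * s.1.1; rw [mul_one, one_mul]) (ng_comm _) (ng_comm _)
  · rw [h]; exact tt_ext (ng_comm _) (ng_comm _) (by change s.1.2.2 * 1 = 1 * s.1.2.2; rw [mul_one, one_mul])
  · rw [h]; exact tt_ext (ng_comm _) (by change s.1.2.1 * 1 = 1 * s.1.2.1; rw [mul_one, one_mul]) (ng_comm _)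

section odd

variable (h2 : (2 : F) ≠ 0)
include h2

omit [Finite F] in
theorem ng_ne : ng F ≠ 1 := by
  intro h
  have h1 : -one8 F = one8 F := by
    have := congrArg (fun g : V8 F ≃ₗ[F] V8 F => g (one8 F)) h
    exact this
  have h3 : (2 : F) • one8 F = 0 := by
    rw [two_smul]
    nth_rewrite 1 [← h1]
    exact neg_add_cancel _
  rcases smul_eq_zero.1 h3 with h4 | h4
  · exact h2 h4
  · have h5 := norm_one8 (F := F)
    rw [h4, QuadraticMap.map_zero] at h5
    exact zero_ne_one h5

theorem z_ne : (1 : TT F) ≠ z0 F ∧ (1 : TT F) ≠ z1 F ∧ (1 : TT F) ≠ z2 F ∧ z0 F ≠ z1 F ∧ z0 F ≠ z2 F ∧ z1 F ≠ z2 F := by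
  have hn := ng_ne h2
  have hn' := hn.symm
  refine ⟨fun h => hn' ?_, fun h => hn' ?_, fun h => hn' ?_, fun h => hn' ?_, fun h => hn' ?_, fun h => hn ?_⟩
  · exact congrArg (fun t : TT F => t.1.2.1) h
  · exact congrArg (fun t : TT F => t.1.1) h
  · exact congrArg (fun t : TT F => t.1.1) h
  · exact congrArg (fun t : TT F => t.1.1) h
  · exact congrArg (fun t : TT F => t.1.1) h
  · exact congrArg (fun t : TT F => t.1.2.1) h

theorem four_le_card_ker [Finite (TT F)] : 4 ≤ Nat.card (prT F).ker := by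
  classical
  obtain ⟨h1, h3, h4, h5, h6, h7⟩ := z_ne h2
  let S : Finset (TT F) := {1, z0 F, z1 F, z2 F}
  have hS : S.card = 4 := by
    change (insert 1 (insert (z0 F) (insert (z1 F) {z2 F})) : Finset (TT F)).card = 4
    rw [Finset.card_insert_of_notMem, Finset.card_insert_of_notMem, Finset.card_insert_of_notMem,
      Finset.card_singleton]
    · simp only [Finset.mem_singleton]; exact h7
    · simp only [Finset.mem_insert, Finset.mem_singleton, not_or]; exact ⟨h5, h6⟩
    · simp only [Finset.mem_insert, Finset.mem_singleton, not_or]; exact ⟨h1, h3, h4⟩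
  have hsub : (S : Set (TT F)) ⊆ ((prT F).ker : Set (TT F)) := by
    intro t ht
    apply prT_eq_one_iff.2
    simpa [S] using ht
  have hle := Set.ncard_le_ncard hsub (Set.toFinite _)
  rw [Set.ncard_coe_finset, hS] at hle
  exact hle

omit h2 in
instance finite_TT : Finite (TT F) := by
  have : Finite (V8 F ≃ₗ[F] V8 F) := Finite.of_injective (fun g : V8 F ≃ₗ[F] V8 F => (g : V8 F → V8 F))
    DFunLike.coe_injective
  infer_instance

/-- The group of triples is the universal cover. -/
theorem exists_equiv : ∃ η : UU (Cfsg.POmega F ⇑(plusForm 4 F)) ≃* TT F,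
    (prT F).comp η.toMonoidHom = prU (Cfsg.POmega F ⇑(plusForm 4 F)) := by
  have hfin : Finite (Cfsg.POmega F ⇑(plusForm 4 F)) := Finite.of_surjective _ prT_surjective
  have hm := H63.Plus.even_rank (F := F) h2 (l := 4) le_rfl (by decide)
  rw [← coe_plusForm] at hm
  refine exists_equiv_of (prT F) prT_surjective prT_ker_central perfect_TT hm ?_
  have h4 := four_le_card_ker h2
  refine le_trans ?_ h4
  rw [Nat.card_eq_fintype_card]
  exact le_of_eq rfl

end odd

/-- **triality on the multiplier of `PΩ⁺₈(q)`, `q` odd** -/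
theorem tri {F : Type u} [Field F] [Fintype F] (ho : Odd (Fintype.card F))
    (A B : Subgroup (UU (Cfsg.POmega F (Cfsg.quadFormPlus 4 F))))
    (hA : A ≤ (prU _).ker) (hB : B ≤ (prU _).ker) (cA : Nat.card A = 2) (cB : Nat.card B = 2) :
    ∃ φ : MulAut (UU (Cfsg.POmega F (Cfsg.quadFormPlus 4 F))), A.map φ.toMonoidHom = B := by
  have h2 : (2 : F) ≠ 0 := by
    have hchar : ringChar F ≠ 2 := by
      intro h
      have := FiniteField.even_card_of_char_two h
      rw [Nat.odd_iff] at ho
      omega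
    exact Ring.two_ne_zero hchar
  revert A B
  rw [← coe_plusForm]
  intro A B hA hB cA cB
  have hfin : Finite (Cfsg.POmega F ⇑(plusForm 4 F)) := Finite.of_surjective _ prT_surjective
  obtain ⟨η, hη⟩ := exists_equiv h2
  exact tri_of (prT F) η hη (fun t => prT_eq_one_iff.1) (rot F) rot_z1 rot_z2 A B hA hB cA cB

end Cfsg.Agent.H887.DM
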